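import Mathlib
import Cfsg.Agent.Lib.Helper49.HJO.Defs

/-!
# S3313 (HJO) package [CARDSUP]
-/

set_option autoImplicit false

namespace Cfsg.Agent.Lib.Helper50.HJO

open Cfsg.Agent.Lib.Helper49.HJO

universe u

theorem pkgCardSup : PkgCardSup.{u} := by
  intro G _ _ A B hAB hinf
  have hAN : A ≤ Subgroup.normalizer (B : Set G) := by
    intro a ha
    rw [Subgroup.mem_normalizer_iff]
    intro h
    constructor
    · intro hh; exact hAB a ha h hh
    · intro hh
      have h1 := hAB a⁻¹ (A.inv_mem ha) _ hh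
      have h2 : a⁻¹ * (a * h * a⁻¹) * a⁻¹⁻¹ = h := by group
      rw [h2] at h1
      exact h1
  have hcoe := Subgroup.coe_mul_of_left_le_normalizer_right A B hAN
  have hmem : ∀ x : G, x ∈ A ⊔ B → ∃ a ∈ A, ∃ b ∈ B, a * b = x := by
    intro x hx
    have h1 : x ∈ ((A ⊔ B : Subgroup G) : Set G) := hx
    rw [hcoe] at h1
    exact Set.mem_mul.mp h1
  rw [← Nat.card_prod]
  symm
  apply Nat.card_congr
  refine Equiv.ofBijective (fun p : A × B => ⟨(p.1 : G) * (p.2 : G),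
    Subgroup.mul_mem _ (Subgroup.mem_sup_left p.1.2) (Subgroup.mem_sup_right p.2.2)⟩) ⟨?_, ?_⟩
  · rintro ⟨a, b⟩ ⟨a', b'⟩ h
    have h1 : (a : G) * b = a' * b' := congrArg Subtype.val h
    have h2 : (a' : G)⁻¹ * a = b' * (b : G)⁻¹ := by
      have h3 : (a : G) = a' * b' * (b : G)⁻¹ := by rw [← h1]; group
      rw [h3]; group
    have h3 : (a' : G)⁻¹ * a ∈ A ⊓ B :=
      ⟨A.mul_mem (A.inv_mem a'.2) a.2, by rw [h2]; exact B.mul_mem b'.2 (B.inv_mem b.2)⟩
    rw [hinf, Subgroup.mem_bot] at h3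
    have ha : a = a' := by
      ext
      exact (inv_mul_eq_one.mp h3).symm
    have hb : b = b' := by
      ext
      rw [h3] at h2
      exact (mul_inv_eq_one.mp h2.symm).symm
    rw [ha, hb]
  · rintro ⟨x, hx⟩
    obtain ⟨a, ha, b, hb, rfl⟩ := hmem x hx
    exact ⟨(⟨a, ha⟩, ⟨b, hb⟩), rfl⟩

example : PkgCardSup.{u} := pkgCardSup

end Cfsg.Agent.Lib.Helper50.HJO

#print axioms Cfsg.Agent.Lib.Helper50.HJO.pkgCardSup
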