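import Mathlib
import Cfsg.Agent.Lib.Helper49.HJO.Defs

/-!
# S3313 (HJO) package [N1]
-/

set_option autoImplicit false
set_option linter.style.haveILetI false

namespace Cfsg.Agent.Lib.Helper50.HJO

open Cfsg.Agent.Lib.Helper49.HJO

universe u

theorem pkgN1 (hCrit : PkgCrit.{u}) (hNV : PkgNV.{u}) (hV : PkgV.{u}) : PkgN1.{u} := by
  intro G _ _ H Q K z hcfg
  classical
  have hV' := hV H Q K z hcfg
  let e : {p : G × G // p.1 ∈ Q ∧ p.1 * p.1 = 1 ∧ p.2 ∈ H ∧ p.2 ∉ Q ∧ p.2 * p.2 = 1 ∧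
        z ∈ Subgroup.zpowers (p.1 * p.2)} ≃
      (Σ v : {v : G // v ∈ H ∧ v ∉ Q ∧ v * v = 1},
        {u : G // u ∈ Q ∧ u * u = 1 ∧ cm v.1 u * cm v.1 u = z}) :=
    { toFun := fun p => ⟨⟨p.1.2, p.2.2.2.1, p.2.2.2.2.1, p.2.2.2.2.2.1⟩,
        ⟨p.1.1, p.2.1, p.2.2.1,
          (hCrit H Q K z hcfg p.1.2 p.2.2.2.1 p.2.2.2.2.1 p.2.2.2.2.2.1 p.1.1 p.2.1 p.2.2.1).1
            p.2.2.2.2.2.2⟩⟩
      invFun := fun s => ⟨(s.2.1, s.1.1), s.2.2.1, s.2.2.2.1, s.1.2.1, s.1.2.2.1, s.1.2.2.2,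
        (hCrit H Q K z hcfg s.1.1 s.1.2.1 s.1.2.2.1 s.1.2.2.2 s.2.1 s.2.2.1 s.2.2.2.1).2
          s.2.2.2.2⟩
      left_inv := fun p => rfl
      right_inv := fun s => rfl }
  haveI : Fintype {v : G // v ∈ H ∧ v ∉ Q ∧ v * v = 1} := Fintype.ofFinite _
  rw [Nat.card_congr e, Nat.card_sigma]
  have h8 : ∀ v : {v : G // v ∈ H ∧ v ∉ Q ∧ v * v = 1},
      Nat.card {u : G // u ∈ Q ∧ u * u = 1 ∧ cm v.1 u * cm v.1 u = z} = 8 :=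
    fun v => hNV H Q K z hcfg v.1 v.2.1 v.2.2.1 v.2.2.2
  rw [Finset.sum_congr rfl (fun v _ => h8 v), Finset.sum_const, Finset.card_univ,
    ← Nat.card_eq_fintype_card, hV']
  rfl

example (hCrit : PkgCrit.{u}) (hNV : PkgNV.{u}) (hV : PkgV.{u}) : PkgN1.{u} :=
  pkgN1 hCrit hNV hV

end Cfsg.Agent.Lib.Helper50.HJO

#print axioms Cfsg.Agent.Lib.Helper50.HJO.pkgN1
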