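import Mathlib
import Cfsg.Agent.Lib.Helper49.HJO.Defs

/-!
# S3313 (HJO) package [RED1]
-/

set_option autoImplicit false

namespace Cfsg.Agent.Lib.Helper50.HJO

open Cfsg.Agent.Lib.Helper49.HJO

universe u

theorem red1_orderOf_of_isConj {G : Type u} [Group G] {a b : G} (h : IsConj a b) :
    orderOf b = orderOf a := by
  obtain ⟨c, hc⟩ := isConj_iff.mp h
  rw [← hc]
  exact MulEquiv.orderOf_eq (MulAut.conj c) a

theorem red1_sq_of_order {G : Type u} [Group G] {a : G} (h : orderOf a = 2) : a * a = 1 := by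
  rw [← pow_two, ← h]; exact pow_orderOf_eq_one a

theorem red1_order_of_sq {G : Type u} [Group G] {a : G} (h : a * a = 1) (h1 : a ≠ 1) :
    orderOf a = 2 := by
  apply orderOf_eq_prime
  · rw [pow_two]; exact h
  · exact h1

/-- An element inverting `x` inverts every power of `x`; an involution among these powers is
centralized. -/
theorem red1_comm {G : Type u} [Group G] (w x z : G) (hw : w * x * w⁻¹ = x⁻¹)
    (hz : z * z = 1) (hmem : z ∈ Subgroup.zpowers x) : z * w = w * z := by
  obtain ⟨k, hk⟩ := Subgroup.mem_zpowers_iff.mp hmem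
  have h1 : w * z * w⁻¹ = z⁻¹ := by
    rw [← hk]
    have h2 := map_zpow (MulAut.conj w) x k
    simp only [MulAut.conj_apply] at h2
    rw [h2, hw, inv_zpow]
  have h3 : z⁻¹ = z := inv_eq_of_mul_eq_one_left hz
  rw [h3] at h1
  exact (mul_inv_eq_iff_eq_mul.mp h1).symm

theorem red1_mem_zpowers_invol {G : Type u} [Group G] (v z : G) (hv : v * v = 1)
    (hmem : z ∈ Subgroup.zpowers v) : z = 1 ∨ z = v := by
  obtain ⟨k, hk⟩ := Subgroup.mem_zpowers_iff.mp hmem
  have hv2 : v ^ (2 : ℤ) = 1 := by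
    rw [show (2 : ℤ) = 1 + 1 by norm_num, zpow_add, zpow_one]; exact hv
  rcases Int.even_or_odd' k with ⟨m, rfl | rfl⟩
  · left; rw [← hk, zpow_mul, hv2, one_zpow]
  · right; rw [← hk, zpow_add, zpow_mul, hv2, one_zpow, one_mul, zpow_one]

theorem pkgRed1 : PkgRed1.{u} := by
  intro G _ _ z t Q hz ht hzt hzQ hQz hCz
  apply Nat.card_congr
  apply Equiv.subtypeEquivRight
  rintro ⟨u, v⟩
  simp only
  have hz2 : z * z = 1 := red1_sq_of_order hz
  have hz1 : z ≠ 1 := by
    intro h; rw [h, orderOf_one] at hz; omega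
  constructor
  · rintro ⟨hzu, htv, hmem⟩
    have hu : orderOf u = 2 := by rw [red1_orderOf_of_isConj hzu, hz]
    have hv : orderOf v = 2 := by rw [red1_orderOf_of_isConj htv, ht]
    have huu : u * u = 1 := red1_sq_of_order hu
    have hvv : v * v = 1 := red1_sq_of_order hv
    have hui : u⁻¹ = u := inv_eq_of_mul_eq_one_left huu
    have hvi : v⁻¹ = v := inv_eq_of_mul_eq_one_left hvv
    have h1 : u * (u * v) * u⁻¹ = (u * v)⁻¹ := by
      rw [mul_inv_rev, hui, hvi, ← mul_assoc, huu, one_mul]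
    have h2 : v * (u * v) * v⁻¹ = (u * v)⁻¹ := by
      rw [mul_inv_rev, hui, hvi, mul_assoc, mul_assoc, hvv, mul_one]
    have huC : u ∈ Subgroup.centralizer ({z} : Set G) := by
      rw [Subgroup.mem_centralizer_iff]
      intro h hh
      rw [Set.mem_singleton_iff] at hh
      rw [hh]
      exact red1_comm u (u * v) z h1 hz2 hmem
    have hvC : v ∈ Subgroup.centralizer ({z} : Set G) := by
      rw [Subgroup.mem_centralizer_iff]
      intro h hh
      rw [Set.mem_singleton_iff] at hh
      rw [hh]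
      exact red1_comm v (u * v) z h2 hz2 hmem
    refine ⟨?_, huu, hvC, ?_, hvv, hmem⟩
    · by_contra huQ
      exact hzt (hzu.trans (hCz u huC hu huQ))
    · intro hvQ
      exact hzt ((hQz v hvQ hv).symm.trans htv.symm)
  · rintro ⟨huQ, huu, hvC, hvQ, hvv, hmem⟩
    have hv1 : v ≠ 1 := by
      intro h; rw [h] at hvQ; exact hvQ Q.one_mem
    have hv : orderOf v = 2 := red1_order_of_sq hvv hv1
    have hu1 : u ≠ 1 := by
      intro h
      rw [h, one_mul] at hmem
      rcases red1_mem_zpowers_invol v z hvv hmem with h1 | h1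
      · exact hz1 h1
      · rw [← h1] at hvQ; exact hvQ hzQ
    have hu : orderOf u = 2 := red1_order_of_sq huu hu1
    exact ⟨(hQz u huQ hu).symm, (hCz v hvC hv hvQ).symm, hmem⟩

example : PkgRed1.{u} := pkgRed1

end Cfsg.Agent.Lib.Helper50.HJO

#print axioms Cfsg.Agent.Lib.Helper50.HJO.pkgRed1
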